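import Cfsg.Agent.Helper11.ChevTwBG2f

set_option autoImplicit false
open Cfsg Cfsg.Lie

namespace Cfsg.Agent.Helper11

theorem stab_mk_iff {G : Type*} [Group G] (B : Subgroup G) (a s : G) :
    s ∈ MulAction.stabilizer G (QuotientGroup.mk a : G ⧸ B) ↔ a⁻¹ * s * a ∈ B := by
  rw [MulAction.mem_stabilizer_iff, MulAction.Quotient.smul_mk, QuotientGroup.eq, smul_eq_mul]
  have e : (s * a)⁻¹ * a = (a⁻¹ * s * a)⁻¹ := by group
  rw [e, inv_mem_iff]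

theorem card_le_two_of_two {α β : Type*} (f : α → β) (hf : Function.Injective f) (a b : β)
    (h : ∀ x, f x = a ∨ f x = b) : Nat.card α ≤ 2 := by
  classical
  have hle := Nat.card_le_card_of_injective (fun x : α => decide (f x = a)) (by
    intro s s' e
    have e' : decide (f s = a) = decide (f s' = a) := e
    apply hf
    by_cases h1 : f s = a
    · have h2 : f s' = a := by
        have e2 : decide (f s' = a) = true := by rw [← e']; exact decide_eq_true h1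
        exact of_decide_eq_true e2
      rw [h1, h2]
    · have h2 : ¬ f s' = a := by
        intro h2
        have e2 : decide (f s = a) = true := by rw [e']; exact decide_eq_true h2
        exact h1 (of_decide_eq_true e2)
      rw [(h s).resolve_left h1, (h s').resolve_left h2])
  rw [Nat.card_eq_fintype_card (α := Bool), Fintype.card_bool] at hle
  exact hle

section G2Stab
variable {K : Type*} [Field K] [Fintype K] {m : ℕ}

set_option maxRecDepth 100000 in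
set_option maxHeartbeats 0 in
theorem g2_pairs_h0b : (chevG2.pairing 7 8 + chevG2.pairing 6 8) % 2 = 0 ∧
    (chevG2.pairing 7 10 + chevG2.pairing 6 10) % 2 = 0 := by decide +kernel

omit [Fintype K] in
theorem g2_h0_dEnt_even (hD : Seven chevG2) (s : ℕ) (hs : s < chevG2.nroots)
    (he : (chevG2.pairing 7 s + chevG2.pairing 6 s) % 2 = 0) :
    dEnt (hG hD 7 (-1 : K) * hG hD 6 (-1)) s = 1 := by
  have hm : (-1 : K) ≠ 0 := neg_ne_zero.mpr one_ne_zero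
  rw [dEnt_mul hD _ _ (hG_mem_H hD 7 (by decide) _ hm),
    dEnt_hG hD 7 (by decide) _ hm s hs, dEnt_hG hD 6 (by decide) _ hm s hs, ← zpow_add₀ hm]
  exact Even.neg_one_zpow (Int.even_iff.mpr he)

omit [Fintype K] in
/-- `n₀ v n₀⁻¹ ∈ B` with `v ∈ U` forces `v = 1`. -/
theorem g2nz_conj_B (hD : Seven chevG2) (v : GL chevG2.Idx K) (hv : v ∈ chevG2.posUnipotent K)
    (hB : g2nz hD K * v * (g2nz hD K)⁻¹ ∈ chevG2.borelSubgroup K) : v = 1 := by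
  have hV : g2nz hD K * v * (g2nz hD K)⁻¹ ∈ chevG2.negUnipotent K := by
    rw [← g2nz_map hD]
    exact ⟨v, hv, rfl⟩
  have h1 : g2nz hD K * v * (g2nz hD K)⁻¹ ∈ chevG2.borelSubgroup K ⊓ chevG2.negUnipotent K :=
    Subgroup.mem_inf.mpr ⟨hB, hV⟩
  rw [B_inf_negU hD, Subgroup.mem_bot] at h1
  have e : v = (g2nz hD K)⁻¹ * (g2nz hD K * v * (g2nz hD K)⁻¹) * g2nz hD K := by group
  rw [e, h1]; group

theorem g2_three_pt (hK : Fintype.card K = 3 ^ (2 * m + 1)) (hD : Seven chevG2)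
    (u₃ : GL chevG2.Idx K) (hu₃ : u₃ ∈ chevG2.posUnipotent K ⊓ twistedG2 K (3 ^ m))
    (hne : u₃ ≠ 1) (c : GL chevG2.Idx K) (hcG : c ∈ twistedG2 K (3 ^ m))
    (h1 : c ∈ chevG2.borelSubgroup K)
    (h2 : g2nz hD K * c * (g2nz hD K)⁻¹ ∈ chevG2.borelSubgroup K)
    (h3 : g2nz hD K * (u₃⁻¹ * c * u₃) * (g2nz hD K)⁻¹ ∈ chevG2.borelSubgroup K) :
    c = 1 ∨ c = hG hD 7 (-1 : K) * hG hD 6 (-1) := by
  haveI hch : CharP K 3 := charP_of_card Nat.prime_three hK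
  haveI : Fact (Nat.Prime 3) := ⟨Nat.prime_three⟩
  have hθ : IsFrob K (3 ^ m) := isFrob_pow 3 m
  obtain ⟨h3', h3z, hq⟩ := g2_setup hK
  have hS := g2_le_fix hD (3 ^ m) h3z hθ hq
  have hnN := g2nz_N (K := K) hD
  obtain ⟨u, hu, h, hh, rfl⟩ := g2_fix_B hK hD hθ c h1 (hS hcG)
  have hnh : g2nz hD K * h * (g2nz hD K)⁻¹ ∈ chevG2.borelSubgroup K :=
    Subgroup.mem_sup_right (N_conj_H hD hnN hh.1)
  have hu1 : u = 1 := by
    apply g2nz_conj_B hD u hu.1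
    have e : g2nz hD K * u * (g2nz hD K)⁻¹ =
        (g2nz hD K * (u * h) * (g2nz hD K)⁻¹) * (g2nz hD K * h * (g2nz hD K)⁻¹)⁻¹ := by group
    rw [e]
    exact mul_mem h2 (inv_mem hnh)
  rw [hu1, one_mul] at h3
  rw [hu1, one_mul]
  have hhu : h * u₃ * h⁻¹ ∈ chevG2.posUnipotent K :=
    ((Subgroup.mem_normalizer_iff.mp (H_le_normalizer_posU hD hh.1)) u₃).mp hu₃.1
  have hv1 : u₃⁻¹ * (h * u₃ * h⁻¹) = 1 := by
    apply g2nz_conj_B hD _ (mul_mem (inv_mem hu₃.1) hhu)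
    have e : g2nz hD K * (u₃⁻¹ * (h * u₃ * h⁻¹)) * (g2nz hD K)⁻¹ =
        (g2nz hD K * (u₃⁻¹ * h * u₃) * (g2nz hD K)⁻¹) *
          (g2nz hD K * h * (g2nz hD K)⁻¹)⁻¹ := by
      group
    rw [e]
    exact mul_mem h3 (inv_mem hnh)
  have hcm : h * u₃ = u₃ * h := by
    have e : h * u₃ = u₃ * (u₃⁻¹ * (h * u₃ * h⁻¹)) * h := by group
    rw [e, hv1, mul_one]
  have hodd := three_pow_odd_half m
  have h5 := Nat.two_mul_div_two_add_one_of_odd (Odd.pow (n := 2 * m + 1) (by decide : Odd 3))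
  have hsq : h * h = 1 := by
    by_contra hne2
    have hhh : h * h ∈ chevG2.diagonalSubgroup K ⊓ twistedG2 K (3 ^ m) := mul_mem hh hh
    have hpow : (h * h) ^ (3 ^ (2 * m + 1) / 2) = 1 := by
      have h6 : (⟨h, hh⟩ : ↥(chevG2.diagonalSubgroup K ⊓ twistedG2 K (3 ^ m))) ^
          Nat.card ↥(chevG2.diagonalSubgroup K ⊓ twistedG2 K (3 ^ m)) = 1 := pow_card_eq_one'
      rw [g2_H_card hK] at h6
      have h7 : h ^ (3 ^ (2 * m + 1) - 1) = 1 := congrArg Subtype.val h6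
      rw [← pow_two, ← pow_mul]
      have e : 2 * (3 ^ (2 * m + 1) / 2) = 3 ^ (2 * m + 1) - 1 := by omega
      rw [e, h7]
    have ho : Odd (orderOf (h * h)) := Odd.of_dvd_nat hodd (orderOf_dvd_of_pow_eq_one hpow)
    have hbot := g2_odd_fpf hK (h * h) hhh hne2 ho
    have hmem : u₃ ∈ (chevG2.posUnipotent K ⊓ twistedG2 K (3 ^ m)) ⊓
        Subgroup.centralizer {h * h} := by
      refine Subgroup.mem_inf.mpr ⟨hu₃, ?_⟩
      rw [Subgroup.mem_centralizer_iff]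
      intro x hx
      rw [Set.mem_singleton_iff] at hx
      rw [hx]
      calc h * h * u₃ = h * (h * u₃) := mul_assoc _ _ _
        _ = h * (u₃ * h) := by rw [hcm]
        _ = h * u₃ * h := (mul_assoc _ _ _).symm
        _ = u₃ * h * h := by rw [hcm]
        _ = u₃ * (h * h) := mul_assoc _ _ _
    rw [hbot, Subgroup.mem_bot] at hmem
    exact hne hmem
  have hd : dEnt h 6 * dEnt h 6 = 1 := by
    rw [← dEnt_mul hD _ _ hh.1, hsq, dEnt_one_eq]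
  rcases mul_self_eq_one_iff.mp hd with e | e
  · left
    exact g2_H_fix_inj hD (frobHom hθ) h 1 hh.1 (one_mem _) (hS hh.2) (one_mem _)
      (by rw [e, dEnt_one_eq])
  · right
    have hm : (-1 : K) ≠ 0 := neg_ne_zero.mpr one_ne_zero
    have h0H : hG hD 7 (-1 : K) * hG hD 6 (-1) ∈ chevG2.diagonalSubgroup K :=
      mul_mem (hG_mem_H hD 7 (by decide) _ hm) (hG_mem_H hD 6 (by decide) _ hm)
    exact g2_H_fix_inj hD (frobHom hθ) h _ hh.1 h0H (hS hh.2)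
      (hS (g2_h0_mem hD (3 ^ m) h3z hθ)) (by rw [e, g2_h0_dEnt hD])

theorem g2_coset_form (hK : Fintype.card K = 3 ^ (2 * m + 1)) (hD : Seven chevG2)
    (hθ : IsFrob K (3 ^ m)) (w : GL chevG2.Idx K) (hw : w ∈ twistedG2 K (3 ^ m))
    (hwB : w ∉ chevG2.borelSubgroup K) :
    ∃ u ∈ chevG2.posUnipotent K ⊓ twistedG2 K (3 ^ m),
      ∃ b ∈ chevG2.borelSubgroup K ⊓ twistedG2 K (3 ^ m), w = u * (g2nz hD K)⁻¹ * b := by
  obtain ⟨h3, h3z, hq⟩ := g2_setup hK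
  have hS := g2_le_fix hD (3 ^ m) h3z hθ hq
  have hGG : twistedG2 K (3 ^ m) ≤ chevG2.group K :=
    gen_le hD _ _ (fun w _ => wG_mem_group hD w)
  rcases g2_fix_decomp hK hD hθ w⁻¹ (hGG (inv_mem hw)) (hS (inv_mem hw)) with
    ⟨u, hu, h, hh, e⟩ | ⟨u, hu, h, hh, u₂, hu₂, e⟩
  · exfalso
    apply hwB
    have e2 : w = (u * h)⁻¹ := by rw [← e, inv_inv]
    rw [e2]
    exact inv_mem (mul_mem (Subgroup.mem_sup_left hu.1) (Subgroup.mem_sup_right hh.1))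
  · refine ⟨u₂⁻¹, inv_mem hu₂, h⁻¹ * u⁻¹, ?_, ?_⟩
    · have hB1 : h⁻¹ * u⁻¹ ∈ chevG2.borelSubgroup K :=
        mul_mem (inv_mem (Subgroup.mem_sup_right hh.1)) (inv_mem (Subgroup.mem_sup_left hu.1))
      have hB2 : h⁻¹ * u⁻¹ ∈ twistedG2 K (3 ^ m) := mul_mem (inv_mem hh.2) (inv_mem hu.2)
      exact Subgroup.mem_inf.mpr ⟨hB1, hB2⟩
    · have e2 : w = (u * h * g2nz hD K * u₂)⁻¹ := by rw [← e, inv_inv]
      rw [e2]; group

/-- `B¹` as a subgroup of `G¹`. -/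
abbrev G2B1 (K : Type*) [Field K] (m : ℕ) : Subgroup ↥(twistedG2 K (3 ^ m)) :=
  (chevG2.borelSubgroup K ⊓ twistedG2 K (3 ^ m)).subgroupOf (twistedG2 K (3 ^ m))

omit [Fintype K] in
theorem g2_stab_iff (a s : ↥(twistedG2 K (3 ^ m))) :
    s ∈ MulAction.stabilizer ↥(twistedG2 K (3 ^ m))
        (QuotientGroup.mk a : ↥(twistedG2 K (3 ^ m)) ⧸ G2B1 K m) ↔
      (a : GL chevG2.Idx K)⁻¹ * (s : GL chevG2.Idx K) * (a : GL chevG2.Idx K) ∈
        chevG2.borelSubgroup K := by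
  rw [stab_mk_iff, Subgroup.mem_subgroupOf]
  constructor
  · intro h; exact h.1
  · intro h; exact Subgroup.mem_inf.mpr ⟨h, (a⁻¹ * s * a).2⟩

omit [Fintype K] in
theorem g2_mk_iff (a b : ↥(twistedG2 K (3 ^ m))) :
    (QuotientGroup.mk a : ↥(twistedG2 K (3 ^ m)) ⧸ G2B1 K m) = QuotientGroup.mk b ↔
      (a : GL chevG2.Idx K)⁻¹ * (b : GL chevG2.Idx K) ∈ chevG2.borelSubgroup K := by
  rw [QuotientGroup.eq, Subgroup.mem_subgroupOf]
  constructor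
  · intro h; exact h.1
  · intro h; exact Subgroup.mem_inf.mpr ⟨h, (a⁻¹ * b).2⟩

theorem g2_three_stab_le (hK : Fintype.card K = 3 ^ (2 * m + 1)) (hD : Seven chevG2)
    (n₀' : ↥(twistedG2 K (3 ^ m))) (hn₀' : (n₀' : GL chevG2.Idx K) = g2nz hD K)
    (g u₃ : ↥(twistedG2 K (3 ^ m))) (hu₃ : (u₃ : GL chevG2.Idx K) ∈ chevG2.posUnipotent K)
    (hne : u₃ ≠ 1) :
    Nat.card ↥(MulAction.stabilizer ↥(twistedG2 K (3 ^ m))
        (QuotientGroup.mk g : ↥(twistedG2 K (3 ^ m)) ⧸ G2B1 K m) ⊓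
      MulAction.stabilizer ↥(twistedG2 K (3 ^ m))
        (QuotientGroup.mk (g * n₀'⁻¹) : ↥(twistedG2 K (3 ^ m)) ⧸ G2B1 K m) ⊓
      MulAction.stabilizer ↥(twistedG2 K (3 ^ m))
        (QuotientGroup.mk (g * u₃ * n₀'⁻¹) : ↥(twistedG2 K (3 ^ m)) ⧸ G2B1 K m)) ≤ 2 := by
  refine card_le_two_of_two (fun s => (g : GL chevG2.Idx K)⁻¹ *
    ((s : ↥(twistedG2 K (3 ^ m))) : GL chevG2.Idx K) * (g : GL chevG2.Idx K)) ?_ 1
    (hG hD 7 (-1 : K) * hG hD 6 (-1)) ?_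
  · intro s s' e
    have e2 : (g : GL chevG2.Idx K)⁻¹ * ((s : ↥(twistedG2 K (3 ^ m))) : GL chevG2.Idx K) *
        (g : GL chevG2.Idx K) = (g : GL chevG2.Idx K)⁻¹ *
          ((s' : ↥(twistedG2 K (3 ^ m))) : GL chevG2.Idx K) * (g : GL chevG2.Idx K) := e
    have e' : ((s : ↥(twistedG2 K (3 ^ m))) : GL chevG2.Idx K) =
        ((s' : ↥(twistedG2 K (3 ^ m))) : GL chevG2.Idx K) :=
      mul_left_cancel (mul_right_cancel e2)
    exact Subtype.ext (Subtype.ext e')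
  · intro s
    obtain ⟨s12, s3⟩ := Subgroup.mem_inf.mp s.2
    obtain ⟨s1, s2⟩ := Subgroup.mem_inf.mp s12
    rw [g2_stab_iff] at s1 s2 s3
    refine g2_three_pt hK hD (u₃ : GL chevG2.Idx K) (Subgroup.mem_inf.mpr ⟨hu₃, u₃.2⟩)
      (fun e => hne (Subtype.ext e)) _ (mul_mem (mul_mem (inv_mem g.2) s.1.2) g.2) s1 ?_ ?_
    · have e : g2nz hD K * ((g : GL chevG2.Idx K)⁻¹ *
          ((s : ↥(twistedG2 K (3 ^ m))) : GL chevG2.Idx K) * (g : GL chevG2.Idx K)) *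
          (g2nz hD K)⁻¹ = ((g * n₀'⁻¹ : ↥(twistedG2 K (3 ^ m))) : GL chevG2.Idx K)⁻¹ *
            ((s : ↥(twistedG2 K (3 ^ m))) : GL chevG2.Idx K) *
            ((g * n₀'⁻¹ : ↥(twistedG2 K (3 ^ m))) : GL chevG2.Idx K) := by
        simp only [Subgroup.coe_mul, Subgroup.coe_inv, hn₀']; group
      rw [e]; exact s2
    · have e : g2nz hD K * ((u₃ : GL chevG2.Idx K)⁻¹ * ((g : GL chevG2.Idx K)⁻¹ *
          ((s : ↥(twistedG2 K (3 ^ m))) : GL chevG2.Idx K) * (g : GL chevG2.Idx K)) *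
          (u₃ : GL chevG2.Idx K)) * (g2nz hD K)⁻¹ =
          ((g * u₃ * n₀'⁻¹ : ↥(twistedG2 K (3 ^ m))) : GL chevG2.Idx K)⁻¹ *
            ((s : ↥(twistedG2 K (3 ^ m))) : GL chevG2.Idx K) *
            ((g * u₃ * n₀'⁻¹ : ↥(twistedG2 K (3 ^ m))) : GL chevG2.Idx K) := by
        simp only [Subgroup.coe_mul, Subgroup.coe_inv, hn₀']; group
      rw [e]; exact s3

theorem g2_three_pt_main (hK : Fintype.card K = 3 ^ (2 * m + 1)) :
    (∀ x y z : ↥(twistedG2 K (3 ^ m)) ⧸ G2B1 K m, x ≠ y → x ≠ z → y ≠ z →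
      Nat.card ↥(MulAction.stabilizer ↥(twistedG2 K (3 ^ m)) x ⊓
        MulAction.stabilizer ↥(twistedG2 K (3 ^ m)) y ⊓
        MulAction.stabilizer ↥(twistedG2 K (3 ^ m)) z) ≤ 2) ∧
    ∃ x y z : ↥(twistedG2 K (3 ^ m)) ⧸ G2B1 K m, x ≠ y ∧ x ≠ z ∧ y ≠ z ∧
      Nat.card ↥(MulAction.stabilizer ↥(twistedG2 K (3 ^ m)) x ⊓
        MulAction.stabilizer ↥(twistedG2 K (3 ^ m)) y ⊓
        MulAction.stabilizer ↥(twistedG2 K (3 ^ m)) z) = 2 := by
  classical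
  have hD : Seven chevG2 := by simp
  haveI hch : CharP K 3 := charP_of_card Nat.prime_three hK
  haveI : Fact (Nat.Prime 3) := ⟨Nat.prime_three⟩
  have hθ : IsFrob K (3 ^ m) := isFrob_pow 3 m
  obtain ⟨h3, h3z, hq⟩ := g2_setup hK
  have hS := g2_le_fix hD (3 ^ m) h3z hθ hq
  have hθ0 : 3 ^ m ≠ 0 := pow_ne_zero _ (by norm_num)
  have hrc : ringChar K ≠ 2 := by rw [ringChar.eq K 3]; norm_num
  have hnN := g2nz_N (K := K) hD
  obtain ⟨n₀', hn₀'⟩ : ∃ n₀' : ↥(twistedG2 K (3 ^ m)), (n₀' : GL chevG2.Idx K) = g2nz hD K :=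
    ⟨⟨g2nz hD K, g2nz_mem hD (3 ^ m) h3z hθ⟩, rfl⟩
  have hA : ∀ w : ↥(twistedG2 K (3 ^ m)), (w : GL chevG2.Idx K) ∉ chevG2.borelSubgroup K →
      ∃ u b : ↥(twistedG2 K (3 ^ m)), (u : GL chevG2.Idx K) ∈ chevG2.posUnipotent K ∧
        (b : GL chevG2.Idx K) ∈ chevG2.borelSubgroup K ∧ w = u * n₀'⁻¹ * b := by
    intro w hw
    obtain ⟨u, hu, b, hb, e⟩ := g2_coset_form hK hD hθ (w : GL chevG2.Idx K) w.2 hw
    refine ⟨⟨u, hu.2⟩, ⟨b, hb.2⟩, hu.1, hb.1, ?_⟩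
    apply Subtype.ext
    rw [Subgroup.coe_mul, Subgroup.coe_mul, Subgroup.coe_inv, hn₀']
    exact e
  constructor
  · intro x y z hxy hxz hyz
    obtain ⟨g₁, rfl⟩ := QuotientGroup.mk_surjective x
    obtain ⟨g₂, rfl⟩ := QuotientGroup.mk_surjective y
    obtain ⟨g₃, rfl⟩ := QuotientGroup.mk_surjective z
    have hw₂ : ((g₁⁻¹ * g₂ : ↥(twistedG2 K (3 ^ m))) : GL chevG2.Idx K) ∉
        chevG2.borelSubgroup K := fun h => hxy ((g2_mk_iff g₁ g₂).mpr h)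
    obtain ⟨u₂, b₂, hu₂, hb₂, e₂⟩ := hA _ hw₂
    have ex : (QuotientGroup.mk g₁ : ↥(twistedG2 K (3 ^ m)) ⧸ G2B1 K m) =
        QuotientGroup.mk (g₁ * u₂) := by
      rw [g2_mk_iff]
      have e : (g₁ : GL chevG2.Idx K)⁻¹ *
          ((g₁ * u₂ : ↥(twistedG2 K (3 ^ m))) : GL chevG2.Idx K) = (u₂ : GL chevG2.Idx K) := by
        simp only [Subgroup.coe_mul]; group
      rw [e]; exact Subgroup.mem_sup_left hu₂
    have ey : (QuotientGroup.mk g₂ : ↥(twistedG2 K (3 ^ m)) ⧸ G2B1 K m) =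
        QuotientGroup.mk (g₁ * u₂ * n₀'⁻¹) := by
      rw [g2_mk_iff]
      have e2 : g₂ = g₁ * (u₂ * n₀'⁻¹ * b₂) := by rw [← e₂]; group
      have e : (g₂ : GL chevG2.Idx K)⁻¹ *
          ((g₁ * u₂ * n₀'⁻¹ : ↥(twistedG2 K (3 ^ m))) : GL chevG2.Idx K) =
          (b₂ : GL chevG2.Idx K)⁻¹ := by
        rw [e2]
        simp only [Subgroup.coe_mul, Subgroup.coe_inv]
        group
      rw [e]; exact inv_mem hb₂
    have hw₃ : (((g₁ * u₂)⁻¹ * g₃ : ↥(twistedG2 K (3 ^ m))) : GL chevG2.Idx K) ∉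
        chevG2.borelSubgroup K :=
      fun h => hxz (ex.trans ((g2_mk_iff (g₁ * u₂) g₃).mpr h))
    obtain ⟨u₃, b₃, hu₃, hb₃, e₃⟩ := hA _ hw₃
    have ez : (QuotientGroup.mk g₃ : ↥(twistedG2 K (3 ^ m)) ⧸ G2B1 K m) =
        QuotientGroup.mk (g₁ * u₂ * u₃ * n₀'⁻¹) := by
      rw [g2_mk_iff]
      have e2 : g₃ = g₁ * u₂ * (u₃ * n₀'⁻¹ * b₃) := by rw [← e₃]; group
      have e : (g₃ : GL chevG2.Idx K)⁻¹ *
          ((g₁ * u₂ * u₃ * n₀'⁻¹ : ↥(twistedG2 K (3 ^ m))) : GL chevG2.Idx K) =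
          (b₃ : GL chevG2.Idx K)⁻¹ := by
        rw [e2]
        simp only [Subgroup.coe_mul, Subgroup.coe_inv]
        group
      rw [e]; exact inv_mem hb₃
    have hne : u₃ ≠ 1 := by
      rintro rfl
      apply hyz
      rw [ey, ez, mul_one]
    rw [ex, ey, ez]
    exact g2_three_stab_le hK hD n₀' hn₀' (g₁ * u₂) u₃ hu₃ hne
  · have hu3U : wG hD (reeWordU (3 ^ m) (0 : K) 1 0) ∈
        chevG2.posUnipotent K ⊓ twistedG2 K (3 ^ m) :=
      ((g2_U_struct hK).1 _).mpr ⟨0, 1, 0, wG_val hD _⟩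
    have eu3 : wG hD (reeWordU (3 ^ m) (0 : K) 1 0) = reeP hD 8 10 (3 ^ m) 1 := by
      rw [reeU_form hD (3 ^ m) h3z, reeS_zero hD (3 ^ m) hθ0, reeP_zero hD (3 ^ m) 9 11 hθ0,
        one_mul, mul_one]
    rw [eu3] at hu3U
    have hu3ne : reeP hD 8 10 (3 ^ m) (1 : K) ≠ 1 := by
      intro e
      have e0 : wG hD (reeWordU (3 ^ m) (0 : K) 0 0) = 1 := by
        rw [reeU_form hD (3 ^ m) h3z, reeS_zero hD (3 ^ m) hθ0, reeP_zero hD (3 ^ m) 9 11 hθ0,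
          reeP_zero hD (3 ^ m) 8 10 hθ0, one_mul, mul_one]
      have h := g2_reeU_inj hD (3 ^ m) h3z 0 1 0 0 0 0 (by rw [eu3, e0, e])
      exact one_ne_zero h.2.1
    obtain ⟨u₃', hu₃'⟩ : ∃ u : ↥(twistedG2 K (3 ^ m)),
        (u : GL chevG2.Idx K) = reeP hD 8 10 (3 ^ m) 1 := ⟨⟨_, hu3U.2⟩, rfl⟩
    have hu₃ : (u₃' : GL chevG2.Idx K) ∈ chevG2.posUnipotent K := by rw [hu₃']; exact hu3U.1
    have hne : u₃' ≠ 1 := by
      intro e
      apply hu3ne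
      rw [← hu₃', e]; rfl
    have hm : (-1 : K) ≠ 0 := neg_ne_zero.mpr one_ne_zero
    have h0H : hG hD 7 (-1 : K) * hG hD 6 (-1) ∈ chevG2.diagonalSubgroup K :=
      mul_mem (hG_mem_H hD 7 (by decide) _ hm) (hG_mem_H hD 6 (by decide) _ hm)
    obtain ⟨h₀', hh₀'⟩ : ∃ h : ↥(twistedG2 K (3 ^ m)),
        (h : GL chevG2.Idx K) = hG hD 7 (-1 : K) * hG hD 6 (-1) :=
      ⟨⟨_, g2_h0_mem hD (3 ^ m) h3z hθ⟩, rfl⟩
    have hcomm : (hG hD 7 (-1 : K) * hG hD 6 (-1)) * reeP hD 8 10 (3 ^ m) 1 *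
        (hG hD 7 (-1 : K) * hG hD 6 (-1))⁻¹ = reeP hD 8 10 (3 ^ m) 1 := by
      have c8 := H_conj_dEnt hD _ h0H 8 (by decide) ((1 : K) ^ 3 ^ m)
      have c10 := H_conj_dEnt hD _ h0H 10 (by decide) (1 : K)
      rw [g2_h0_dEnt_even hD 8 (by decide) g2_pairs_h0b.1, one_mul] at c8
      rw [g2_h0_dEnt_even hD 10 (by decide) g2_pairs_h0b.2, one_mul] at c10
      unfold reeP
      have e : ∀ a b h : GL chevG2.Idx K, h * (a * b) * h⁻¹ = (h * a * h⁻¹) * (h * b * h⁻¹) := by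
        intro a b h; group
      rw [e, c8, c10]
    refine ⟨QuotientGroup.mk 1, QuotientGroup.mk (1 * n₀'⁻¹),
      QuotientGroup.mk (1 * u₃' * n₀'⁻¹), ?_, ?_, ?_, ?_⟩
    · intro e
      rw [g2_mk_iff] at e
      apply g2nz_not_B (K := K) hD
      have e' : g2nz hD K = (((1 : ↥(twistedG2 K (3 ^ m))) : GL chevG2.Idx K)⁻¹ *
          ((1 * n₀'⁻¹ : ↥(twistedG2 K (3 ^ m))) : GL chevG2.Idx K))⁻¹ := by
        simp only [Subgroup.coe_mul, Subgroup.coe_inv, Subgroup.coe_one, hn₀']; group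
      rw [e']; exact inv_mem e
    · intro e
      rw [g2_mk_iff] at e
      apply g2nz_not_B (K := K) hD
      have e' : g2nz hD K = (((1 : ↥(twistedG2 K (3 ^ m))) : GL chevG2.Idx K)⁻¹ *
          ((1 * u₃' * n₀'⁻¹ : ↥(twistedG2 K (3 ^ m))) : GL chevG2.Idx K))⁻¹ *
          (u₃' : GL chevG2.Idx K) := by
        simp only [Subgroup.coe_mul, Subgroup.coe_inv, Subgroup.coe_one, hn₀']; group
      rw [e']; exact mul_mem (inv_mem e) (Subgroup.mem_sup_left hu₃)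
    · intro e
      rw [g2_mk_iff] at e
      apply hu3ne
      apply g2nz_conj_B hD _ hu3U.1
      have e' : g2nz hD K * reeP hD 8 10 (3 ^ m) 1 * (g2nz hD K)⁻¹ =
          ((1 * n₀'⁻¹ : ↥(twistedG2 K (3 ^ m))) : GL chevG2.Idx K)⁻¹ *
          ((1 * u₃' * n₀'⁻¹ : ↥(twistedG2 K (3 ^ m))) : GL chevG2.Idx K) := by
        simp only [Subgroup.coe_mul, Subgroup.coe_inv, Subgroup.coe_one, hn₀', hu₃']; group
      rw [e']; exact e
    · apply le_antisymm (g2_three_stab_le hK hD n₀' hn₀' 1 u₃' hu₃ hne)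
      have hmem : h₀' ∈ MulAction.stabilizer ↥(twistedG2 K (3 ^ m))
            (QuotientGroup.mk 1 : ↥(twistedG2 K (3 ^ m)) ⧸ G2B1 K m) ⊓
          MulAction.stabilizer ↥(twistedG2 K (3 ^ m))
            (QuotientGroup.mk (1 * n₀'⁻¹) : ↥(twistedG2 K (3 ^ m)) ⧸ G2B1 K m) ⊓
          MulAction.stabilizer ↥(twistedG2 K (3 ^ m))
            (QuotientGroup.mk (1 * u₃' * n₀'⁻¹) : ↥(twistedG2 K (3 ^ m)) ⧸ G2B1 K m) := by
        refine Subgroup.mem_inf.mpr ⟨Subgroup.mem_inf.mpr ⟨?_, ?_⟩, ?_⟩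
        · rw [g2_stab_iff, hh₀']
          have e : ((1 : ↥(twistedG2 K (3 ^ m))) : GL chevG2.Idx K)⁻¹ *
              (hG hD 7 (-1 : K) * hG hD 6 (-1)) *
              ((1 : ↥(twistedG2 K (3 ^ m))) : GL chevG2.Idx K) =
              hG hD 7 (-1 : K) * hG hD 6 (-1) := by
            simp only [Subgroup.coe_one]; group
          rw [e]; exact Subgroup.mem_sup_right h0H
        · rw [g2_stab_iff, hh₀']
          have e : ((1 * n₀'⁻¹ : ↥(twistedG2 K (3 ^ m))) : GL chevG2.Idx K)⁻¹ *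
              (hG hD 7 (-1 : K) * hG hD 6 (-1)) *
              ((1 * n₀'⁻¹ : ↥(twistedG2 K (3 ^ m))) : GL chevG2.Idx K) =
              g2nz hD K * (hG hD 7 (-1 : K) * hG hD 6 (-1)) * (g2nz hD K)⁻¹ := by
            simp only [Subgroup.coe_mul, Subgroup.coe_inv, Subgroup.coe_one, hn₀']; group
          rw [e]; exact Subgroup.mem_sup_right (N_conj_H hD hnN h0H)
        · rw [g2_stab_iff, hh₀']
          have e : ((1 * u₃' * n₀'⁻¹ : ↥(twistedG2 K (3 ^ m))) : GL chevG2.Idx K)⁻¹ *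
              (hG hD 7 (-1 : K) * hG hD 6 (-1)) *
              ((1 * u₃' * n₀'⁻¹ : ↥(twistedG2 K (3 ^ m))) : GL chevG2.Idx K) =
              g2nz hD K * ((reeP hD 8 10 (3 ^ m) 1)⁻¹ *
                ((hG hD 7 (-1 : K) * hG hD 6 (-1)) * reeP hD 8 10 (3 ^ m) 1 *
                  (hG hD 7 (-1 : K) * hG hD 6 (-1))⁻¹)) *
                (hG hD 7 (-1 : K) * hG hD 6 (-1)) * (g2nz hD K)⁻¹ := by
            simp only [Subgroup.coe_mul, Subgroup.coe_inv, Subgroup.coe_one, hn₀', hu₃']; group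
          rw [e, hcomm, inv_mul_cancel, mul_one]
          exact Subgroup.mem_sup_right (N_conj_H hD hnN h0H)
      have hne0 : h₀' ≠ 1 := by
        intro e
        have e1 : hG hD 7 (-1 : K) * hG hD 6 (-1) = 1 := by rw [← hh₀', e]; rfl
        have e2 := g2_h0_dEnt (K := K) hD
        rw [e1, dEnt_one_eq] at e2
        exact Ring.neg_one_ne_one_of_char_ne_two hrc e2.symm
      have hT : ∀ T : Subgroup ↥(twistedG2 K (3 ^ m)), h₀' ∈ T → 2 ≤ Nat.card ↥T := by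
        intro T hT
        exact (Subgroup.one_lt_card_iff_ne_bot T).mpr (fun hbot => by
          rw [hbot, Subgroup.mem_bot] at hT
          exact hne0 hT)
      exact hT _ hmem

end G2Stab

end Cfsg.Agent.Helper11
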