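import Mathlib

set_option autoImplicit false

namespace Cfsg.Agent.Helper11.S2486b1

open Matrix

/-- upper unitriangular -/
def UU {n : ℕ} (A : Matrix (Fin n) (Fin n) (ZMod 2)) : Prop :=
  A.BlockTriangular id ∧ ∀ i, A i i = 1

theorem uu_one {n : ℕ} : UU (1 : Matrix (Fin n) (Fin n) (ZMod 2)) :=
  ⟨Matrix.blockTriangular_one, fun i => Matrix.one_apply_eq i⟩

theorem uu_mul {n : ℕ} {A B : Matrix (Fin n) (Fin n) (ZMod 2)} (hA : UU A) (hB : UU B) :
    UU (A * B) := by
  refine ⟨hA.1.mul hB.1, fun i => ?_⟩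
  rw [Matrix.mul_apply, Finset.sum_eq_single i]
  · rw [hA.2, hB.2, mul_one]
  · intro c _ hc
    rcases lt_or_gt_of_ne hc with h | h
    · rw [hA.1 (show id c < id i from h), zero_mul]
    · rw [hB.1 (show id i < id c from h), mul_zero]
  · intro hi
    exact absurd (Finset.mem_univ i) hi

theorem uu_det {n : ℕ} {A : Matrix (Fin n) (Fin n) (ZMod 2)} (hA : UU A) : A.det = 1 := by
  rw [Matrix.det_of_upperTriangular hA.1]
  exact Finset.prod_eq_one (fun i _ => hA.2 i)

theorem uu_one_add {n : ℕ} (W : Matrix (Fin n) (Fin n) (ZMod 2))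
    (hW : ∀ a b, ¬ a < b → W a b = 0) : UU (1 + W) := by
  refine ⟨?_, fun i => ?_⟩
  · intro a b hab
    have hab' : b < a := hab
    rw [Matrix.add_apply, Matrix.one_apply_ne (ne_of_gt hab'), hW a b (not_lt.mpr hab'.le),
      add_zero]
  · rw [Matrix.add_apply, Matrix.one_apply_eq, hW i i (lt_irrefl i), add_zero]

theorem colmat_mul {n : ℕ} (i : Fin n) (x : Fin n → ZMod 2)
    (h : Matrix (Fin n) (Fin n) (ZMod 2)) (a b : Fin n) :
    ((Matrix.of fun a c => if c = i then x a else 0 : Matrix (Fin n) (Fin n) (ZMod 2)) * h) a b =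
      x a * h i b := by
  rw [Matrix.mul_apply, Finset.sum_eq_single i]
  · simp
  · intro c _ hc
    simp [hc]
  · intro hi
    exact absurd (Finset.mem_univ i) hi

theorem mul_rowmat {n : ℕ} (c₀ : Fin n) (y : Fin n → ZMod 2)
    (h : Matrix (Fin n) (Fin n) (ZMod 2)) (a b : Fin n) :
    (h * (Matrix.of fun a' b' => if a' = c₀ then y b' else 0 :
      Matrix (Fin n) (Fin n) (ZMod 2))) a b = h a c₀ * y b := by
  rw [Matrix.mul_apply, Finset.sum_eq_single c₀]
  · simp
  · intro c _ hc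
    simp [hc]
  · intro hi
    exact absurd (Finset.mem_univ c₀) hi

theorem z2 : ∀ x : ZMod 2, x ≠ 0 → x = 1 := by decide

theorem z2' : (1 : ZMod 2) + 1 = 0 := by decide

theorem elim (n : ℕ) (g : Matrix (Fin n) (Fin n) (ZMod 2)) (hg : g.det = 1) :
    ∀ j, j ≤ n → ∃ (u u' h : Matrix (Fin n) (Fin n) (ZMod 2)) (ι : Fin n → Fin n),
      UU u ∧ UU u' ∧ h = u * g * u' ∧
      (∀ c : Fin n, (c : ℕ) < j → ∀ a, h a c = if a = ι c then 1 else 0) ∧
      (∀ c : Fin n, (c : ℕ) < j → ∀ b, h (ι c) b = if b = c then 1 else 0) := by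
  intro j
  induction j with
  | zero =>
    intro _
    exact ⟨1, 1, g, id, uu_one, uu_one, by rw [one_mul, mul_one],
      fun c hc => absurd hc (Nat.not_lt_zero _), fun c hc => absurd hc (Nat.not_lt_zero _)⟩
  | succ j ih =>
    intro hj
    obtain ⟨u, u', h, ι, hu, hu', hh, G1, G2⟩ := ih (Nat.le_of_succ_le hj)
    obtain ⟨c₀, hc₀⟩ : ∃ c₀ : Fin n, (c₀ : ℕ) = j := ⟨⟨j, hj⟩, rfl⟩
    have hdet : h.det = 1 := by
      rw [hh, Matrix.det_mul, Matrix.det_mul, uu_det hu, uu_det hu', hg, one_mul, one_mul]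
    have hex : ∃ a, h a c₀ ≠ 0 := by
      by_contra hcon
      push_neg at hcon
      have h0 := Matrix.det_eq_zero_of_column_eq_zero c₀ hcon
      rw [hdet] at h0
      exact one_ne_zero h0
    obtain ⟨i, hi, himax⟩ : ∃ i, h i c₀ ≠ 0 ∧ ∀ a, h a c₀ ≠ 0 → a ≤ i := by
      have hS : (Finset.univ.filter (fun a => h a c₀ ≠ 0)).Nonempty := by
        obtain ⟨a, ha⟩ := hex
        exact ⟨a, Finset.mem_filter.mpr ⟨Finset.mem_univ a, ha⟩⟩
      refine ⟨(Finset.univ.filter (fun a => h a c₀ ≠ 0)).max' hS, ?_, ?_⟩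
      · exact (Finset.mem_filter.mp (Finset.max'_mem _ hS)).2
      · intro a ha
        exact Finset.le_max' _ a (Finset.mem_filter.mpr ⟨Finset.mem_univ a, ha⟩)
    have hi1 : h i c₀ = 1 := z2 _ hi
    have hcne : ∀ c : Fin n, (c : ℕ) < j → c₀ ≠ c := by
      intro c hc e
      rw [← e, hc₀] at hc
      exact lt_irrefl _ hc
    have hne : ∀ c : Fin n, (c : ℕ) < j → i ≠ ι c := by
      intro c hc heq
      have h1 := G2 c hc c₀
      rw [← heq, if_neg (hcne c hc)] at h1
      exact hi h1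
    have hrow : ∀ c : Fin n, (c : ℕ) < j → h i c = 0 := by
      intro c hc
      rw [G1 c hc i, if_neg (hne c hc)]
    have hpiv0 : ∀ c : Fin n, (c : ℕ) < j → h (ι c) c₀ = 0 := by
      intro c hc
      rw [G2 c hc c₀, if_neg (hcne c hc)]
    obtain ⟨x, hx⟩ : ∃ x : Fin n → ZMod 2,
        x = fun a => if a < i ∧ h a c₀ ≠ 0 then 1 else 0 := ⟨_, rfl⟩
    have hx1 : ∀ a, a < i → h a c₀ ≠ 0 → x a = 1 := by
      intro a h1 h2
      rw [hx]
      exact if_pos ⟨h1, h2⟩
    have hx0 : ∀ a, ¬ (a < i ∧ h a c₀ ≠ 0) → x a = 0 := by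
      intro a hna
      rw [hx]
      exact if_neg hna
    obtain ⟨W, hW⟩ : ∃ W : Matrix (Fin n) (Fin n) (ZMod 2),
        W = Matrix.of fun a c => if c = i then x a else 0 := ⟨_, rfl⟩
    have hWu : UU (1 + W) := by
      apply uu_one_add
      intro a b hab
      rw [hW, Matrix.of_apply]
      by_cases hb : b = i
      · rw [if_pos hb]
        exact hx0 a (fun hh => hab (by rw [hb]; exact hh.1))
      · rw [if_neg hb]
    obtain ⟨h', hh'⟩ : ∃ h' : Matrix (Fin n) (Fin n) (ZMod 2), h' = (1 + W) * h := ⟨_, rfl⟩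
    have e' : ∀ a b, h' a b = h a b + x a * h i b := by
      intro a b
      rw [hh', add_mul, one_mul, Matrix.add_apply, hW, colmat_mul]
    have p1 : ∀ a, h' a c₀ = if a = i then 1 else 0 := by
      intro a
      rw [e', hi1, mul_one]
      by_cases hai : a = i
      · have hxa : x a = 0 := hx0 a (fun hh => by rw [hai] at hh; exact lt_irrefl i hh.1)
        rw [hxa, add_zero, if_pos hai, hai, hi1]
      · rw [if_neg hai]
        by_cases ha0 : h a c₀ = 0
        · have hxa : x a = 0 := hx0 a (fun hh => hh.2 ha0)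
          rw [hxa, ha0, add_zero]
        · have hlt : a < i := lt_of_le_of_ne (himax a ha0) hai
          rw [hx1 a hlt ha0, z2 _ ha0, z2']
    have p2 : ∀ a (c : Fin n), (c : ℕ) < j → h' a c = h a c := by
      intro a c hc
      rw [e', hrow c hc, mul_zero, add_zero]
    have p3 : ∀ c : Fin n, (c : ℕ) < j → ∀ b, h' (ι c) b = h (ι c) b := by
      intro c hc b
      have hxa : x (ι c) = 0 := hx0 _ (fun hh => hh.2 (hpiv0 c hc))
      rw [e', hxa, zero_mul, add_zero]
    obtain ⟨y, hy⟩ : ∃ y : Fin n → ZMod 2,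
        y = fun b => if c₀ < b ∧ h' i b ≠ 0 then 1 else 0 := ⟨_, rfl⟩
    have hy1 : ∀ b, c₀ < b → h' i b ≠ 0 → y b = 1 := by
      intro b h1 h2
      rw [hy]
      exact if_pos ⟨h1, h2⟩
    have hy0 : ∀ b, ¬ (c₀ < b ∧ h' i b ≠ 0) → y b = 0 := by
      intro b hnb
      rw [hy]
      exact if_neg hnb
    obtain ⟨W', hW'⟩ : ∃ W' : Matrix (Fin n) (Fin n) (ZMod 2),
        W' = Matrix.of fun a b => if a = c₀ then y b else 0 := ⟨_, rfl⟩
    have hWu' : UU (1 + W') := by
      apply uu_one_add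
      intro a b hab
      rw [hW', Matrix.of_apply]
      by_cases ha : a = c₀
      · rw [if_pos ha]
        exact hy0 b (fun hh => hab (by rw [ha]; exact hh.1))
      · rw [if_neg ha]
    obtain ⟨h'', hh''⟩ : ∃ h'' : Matrix (Fin n) (Fin n) (ZMod 2), h'' = h' * (1 + W') :=
      ⟨_, rfl⟩
    have e'' : ∀ a b, h'' a b = h' a b + h' a c₀ * y b := by
      intro a b
      rw [hh'', mul_add, mul_one, Matrix.add_apply, hW', mul_rowmat]
    have hyc₀ : y c₀ = 0 := hy0 c₀ (fun hh => lt_irrefl _ hh.1)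
    have hlt_of : ∀ c : Fin n, (c : ℕ) < j + 1 → c ≠ c₀ → (c : ℕ) < j := by
      intro c hc hcc
      have h1 : (c : ℕ) ≠ j := fun e => hcc (Fin.ext (e.trans hc₀.symm))
      omega
    have hy_lt : ∀ c : Fin n, (c : ℕ) < j → y c = 0 := by
      intro c hc
      apply hy0
      intro hh
      have h1 := hh.1
      rw [Fin.lt_def, hc₀] at h1
      omega
    refine ⟨(1 + W) * u, u' * (1 + W'), h'', Function.update ι c₀ i, uu_mul hWu hu,
      uu_mul hu' hWu', ?_, ?_, ?_⟩
    · rw [hh'', hh', hh]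
      simp only [mul_assoc]
    · intro c hc a
      by_cases hcc : c = c₀
      · rw [hcc, Function.update_self, e'', p1 a, hyc₀, mul_zero, add_zero]
      · have hcj := hlt_of c hc hcc
        rw [Function.update_of_ne hcc, e'', p2 a c hcj, hy_lt c hcj, mul_zero, add_zero,
          G1 c hcj a]
    · intro c hc b
      by_cases hcc : c = c₀
      · rw [hcc, Function.update_self, e'', p1 i, if_pos rfl, one_mul]
        by_cases hb : b = c₀
        · rw [if_pos hb, hb, p1 i, if_pos rfl, hyc₀, add_zero]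
        · rw [if_neg hb]
          by_cases hlt : c₀ < b
          · by_cases hb0 : h' i b = 0
            · rw [hb0, hy0 b (fun hh => hh.2 hb0), add_zero]
            · rw [hy1 b hlt hb0, z2 _ hb0, z2']
          · have hbj : (b : ℕ) < j := by
              have h1 : b < c₀ := lt_of_le_of_ne (not_lt.mp hlt) hb
              rw [Fin.lt_def, hc₀] at h1
              exact h1
            rw [p2 i b hbj, hrow b hbj, hy0 b (fun hh => hlt hh.1), add_zero]
      · have hcj := hlt_of c hc hcc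
        have hz : h' (ι c) c₀ = 0 := by
          rw [p1, if_neg (fun e => hne c hcj e.symm)]
        rw [Function.update_of_ne hcc, e'', hz, zero_mul, add_zero, p3 c hcj b, G2 c hcj b]

/-- piece B1: Bruhat decomposition of `SL_n(2)` -/
theorem bruhat (n : ℕ) (g : Matrix.SpecialLinearGroup (Fin n) (ZMod 2)) : ∃ (u u' : Matrix.SpecialLinearGroup (Fin n) (ZMod 2)) (σ : Equiv.Perm (Fin n)), (u : Matrix (Fin n) (Fin n) (ZMod 2)).BlockTriangular id ∧ (u' : Matrix (Fin n) (Fin n) (ZMod 2)).BlockTriangular id ∧ (g : Matrix (Fin n) (Fin n) (ZMod 2)) = (u : Matrix (Fin n) (Fin n) (ZMod 2)) * Equiv.Perm.permMatrix (ZMod 2) σ * (u' : Matrix (Fin n) (Fin n) (ZMod 2)) := by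
  obtain ⟨u, u', h, ι, hu, hu', hh, G1, G2⟩ :=
    elim n (g : Matrix (Fin n) (Fin n) (ZMod 2)) g.2 n le_rfl
  have hinj : Function.Injective ι := by
    intro c c' hcc
    have h1 := G2 c c.2 c
    have h2 := G2 c' c'.2 c
    rw [if_pos rfl] at h1
    rw [← hcc, h1] at h2
    by_contra hne
    rw [if_neg hne] at h2
    exact one_ne_zero h2
  have hbij : Function.Bijective ι := Finite.injective_iff_bijective.mp hinj
  obtain ⟨σ, hσ⟩ : ∃ σ : Equiv.Perm (Fin n), σ = (Equiv.ofBijective ι hbij).symm := ⟨_, rfl⟩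
  have hP : h = Equiv.Perm.permMatrix (ZMod 2) σ := by
    ext a c
    rw [G1 c c.2 a]
    have e1 : (σ a = c) ↔ (a = ι c) := by
      rw [hσ, Equiv.symm_apply_eq]
      rfl
    simp [Equiv.Perm.permMatrix, PEquiv.toMatrix_apply, Equiv.toPEquiv_apply, e1]
  have hud : IsUnit u.det := by rw [uu_det hu]; exact isUnit_one
  have hud' : IsUnit u'.det := by rw [uu_det hu']; exact isUnit_one
  have hdi : (u⁻¹).det = 1 := by rw [Matrix.det_nonsing_inv, uu_det hu, Ring.inverse_one]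
  have hdi' : (u'⁻¹).det = 1 := by rw [Matrix.det_nonsing_inv, uu_det hu', Ring.inverse_one]
  have hUT : (u⁻¹).BlockTriangular id := by
    haveI : Invertible u := Matrix.invertibleOfIsUnitDet u hud
    exact Matrix.blockTriangular_inv_of_blockTriangular hu.1
  have hUT' : (u'⁻¹).BlockTriangular id := by
    haveI : Invertible u' := Matrix.invertibleOfIsUnitDet u' hud'
    exact Matrix.blockTriangular_inv_of_blockTriangular hu'.1
  refine ⟨⟨u⁻¹, hdi⟩, ⟨u'⁻¹, hdi'⟩, σ, hUT, hUT', ?_⟩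
  show (g : Matrix (Fin n) (Fin n) (ZMod 2)) = u⁻¹ * Equiv.Perm.permMatrix (ZMod 2) σ * u'⁻¹
  have e1 : u⁻¹ * u = 1 := Matrix.nonsing_inv_mul u hud
  have e2 : u' * u'⁻¹ = 1 := Matrix.mul_nonsing_inv u' hud'
  calc (g : Matrix (Fin n) (Fin n) (ZMod 2))
      = (u⁻¹ * u) * (g : Matrix (Fin n) (Fin n) (ZMod 2)) * (u' * u'⁻¹) := by
        rw [e1, e2, one_mul, mul_one]
    _ = u⁻¹ * (u * (g : Matrix (Fin n) (Fin n) (ZMod 2)) * u') * u'⁻¹ := by
        simp only [mul_assoc]
    _ = u⁻¹ * Equiv.Perm.permMatrix (ZMod 2) σ * u'⁻¹ := by rw [← hh, hP]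

end Cfsg.Agent.Helper11.S2486b1
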